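import Cfsg.Agent.MaxSub.Dickson.Finite
import Cfsg.Agent.Linear.Orders
import Cfsg.Agent.Linear.SmallIso
import Cfsg.Agent.Linear.Transvection
import Cfsg.Agent.PSLTwo25.Subfield

/-!
Dickson's list read inside `PSL(2, F)`, and a criterion for maximality of a subgroup.
-/

set_option autoImplicit false

open scoped MatrixGroups OnePoint commutatorElement

namespace Cfsg.Agent.MaxSubTwo

open Matrix Cfsg.Agent.MaxSub

variable {F : Type*} [Field F]

theorem card_pgl (E : Type*) [Field E] [Fintype E] :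
    Nat.card (ProjGenLinGroup (Fin 2) E) = Fintype.card E * (Fintype.card E - 1) * (Fintype.card E + 1) := by
  rw [Linear.card_PGL_eq_card_SL, Linear.card_SL_two]

/-- A group of the first three kinds of Dickson's list. -/
def Tame (p : ℕ) (M : Type*) [Group M] : Prop :=
  (∀ a b c d : M, Commute ⁅a, b⁆ ⁅c, d⁆) ∧
    ((∀ a b : M, a ^ 3 = 1 → b ^ 3 = 1 → Commute a b) ∨ ∀ a b : M, ⁅a, b⁆ ^ p = 1)

theorem Tame.of_injective {p : ℕ} {M X : Type*} [Group M] [Group X] (h : Tame p M) (f : X →* M)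
    (hf : Function.Injective f) : Tame p X := by
  obtain ⟨h1, h2⟩ := h
  refine ⟨fun a b c d => hf ?_, ?_⟩
  · simp only [map_mul, map_commutatorElement]
    exact h1 (f a) (f b) (f c) (f d)
  · rcases h2 with h2 | h2
    · refine Or.inl fun a b ha hb => hf ?_
      simp only [map_mul]
      exact h2 (f a) (f b) (by rw [← map_pow, ha, map_one]) (by rw [← map_pow, hb, map_one])
    · exact Or.inr fun a b => hf (by rw [map_pow, map_commutatorElement, h2, map_one])

theorem not_tame_of_perfect {p : ℕ} {X : Type*} [Group X] [Nontrivial X] (h : commutator X = ⊤) :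
    ¬ Tame p X := by
  rintro ⟨h1, -⟩
  have hz : commutator X ≤ Subgroup.center X := by
    rw [commutator_eq_closure, Subgroup.closure_le]
    rintro _ ⟨a, b, rfl⟩
    refine Subgroup.mem_center_iff.2 fun g => ?_
    have hle : commutator X ≤ Subgroup.centralizer {⁅a, b⁆} := by
      rw [commutator_eq_closure, Subgroup.closure_le]
      rintro _ ⟨c, d, rfl⟩
      exact Subgroup.mem_centralizer_singleton_iff.2 (h1 c d a b).eq
    exact (Subgroup.mem_centralizer_singleton_iff.1 (hle (h ▸ Subgroup.mem_top g))).symm ▸ rfl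
  have hc : ∀ a b : X, a * b = b * a := fun a b =>
    Subgroup.mem_center_iff.1 (hz (h ▸ Subgroup.mem_top b)) a
  have h0 : commutator X ≤ ⊥ := by
    rw [commutator_eq_closure, Subgroup.closure_le]
    rintro _ ⟨a, b, rfl⟩
    exact commutatorElement_eq_one_iff_mul_comm.2 (hc a b)
  rw [h] at h0
  obtain ⟨x, hx⟩ := exists_ne (1 : X)
  exact hx (Subgroup.mem_bot.1 (h0 (Subgroup.mem_top x)))

theorem not_tame_of_witness {p : ℕ} (hp2 : p ≠ 2) (hp : p.Prime) {X : Type*} [Group X] {a b c d : X} (ha : a ^ 3 = 1)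
    (hb : b ^ 3 = 1) (hab : a * b ≠ b * a) (hcd : ⁅c, d⁆ ^ 2 = 1) (hcd1 : ⁅c, d⁆ ≠ 1) : ¬ Tame p X := by
  rintro ⟨-, h | h⟩
  · exact hab (h a b ha hb)
  · refine hcd1 (orderOf_eq_one_iff.1 (Nat.eq_one_of_dvd_coprimes ((Nat.coprime_primes hp Nat.prime_two).2 hp2)
      (orderOf_dvd_of_pow_eq_one (h c d)) (orderOf_dvd_of_pow_eq_one hcd)))

/-- `A_4` is not tame in odd characteristic. -/
theorem not_tame_alt_four {p : ℕ} (hp2 : p ≠ 2) (hp : p.Prime) : ¬ Tame p (alternatingGroup (Fin 4)) :=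
  not_tame_of_witness hp2 hp
    (a := ⟨Equiv.swap 0 1 * Equiv.swap 1 2, by simp [Equiv.Perm.mem_alternatingGroup]⟩)
    (b := ⟨Equiv.swap 1 2 * Equiv.swap 2 3, by simp [Equiv.Perm.mem_alternatingGroup]⟩)
    (c := ⟨Equiv.swap 0 1 * Equiv.swap 1 2, by simp [Equiv.Perm.mem_alternatingGroup]⟩)
    (d := ⟨Equiv.swap 1 2 * Equiv.swap 2 3, by simp [Equiv.Perm.mem_alternatingGroup]⟩)
    (by decide +kernel) (by decide +kernel) (by decide +kernel) (by decide +kernel) (by decide +kernel)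

theorem not_tame_of_alt_four {p : ℕ} (hp2 : p ≠ 2) (hp : p.Prime) {X : Type*} [Group X]
    (f : alternatingGroup (Fin 4) →* X) (hf : Function.Injective f) : ¬ Tame p X :=
  fun h => not_tame_alt_four hp2 hp (h.of_injective f hf)

theorem not_tame_psl {p : ℕ} (E : Type*) [Field E] [Fintype E] (h4 : 4 ≤ Fintype.card E) :
    ¬ Tame p (ProjectiveSpecialLinearGroup (Fin 2) E) := by
  have hs := Linear.isSimpleGroup_PSL_fin (F := E) 2 le_rfl (fun _ => by rwa [Nat.card_eq_fintype_card])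
  refine not_tame_of_perfect ?_
  rcases Subgroup.Normal.eq_bot_or_eq_top (H := commutator (ProjectiveSpecialLinearGroup (Fin 2) E))
    inferInstance with h | h
  swap
  · exact h
  exfalso
  letI : CommGroup (ProjectiveSpecialLinearGroup (Fin 2) E) :=
    { (inferInstance : Group (ProjectiveSpecialLinearGroup (Fin 2) E)) with
      mul_comm := fun a b => commutatorElement_eq_one_iff_mul_comm.1 (Subgroup.mem_bot.1
        (h ▸ Subgroup.commutator_mem_commutator (Subgroup.mem_top a) (Subgroup.mem_top b))) }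
  have hprime := IsSimpleGroup.prime_card (α := ProjectiveSpecialLinearGroup (Fin 2) E)
  have hcard := Linear.card_PSL_two_mul (F := E)
  set q := Fintype.card E
  set g := Nat.gcd 2 (q - 1)
  have hg : g ≤ 2 := Nat.le_of_dvd (by norm_num) (Nat.gcd_dvd_left _ _)
  have hg1 : g ∣ q - 1 := Nat.gcd_dvd_right _ _
  set c := Nat.card (ProjectiveSpecialLinearGroup (Fin 2) E)
  obtain ⟨k, hk⟩ := hg1
  have hg0 : 0 < g := Nat.gcd_pos_of_pos_left _ (by norm_num)
  have hc : c = q * (k * (q + 1)) := Nat.eq_of_mul_eq_mul_left hg0 (by rw [hcard, hk]; ring)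
  rw [hc] at hprime
  rcases Nat.prime_mul_iff.1 hprime with ⟨-, h'⟩ | ⟨-, h'⟩
  · rw [mul_eq_one] at h'; omega
  · omega

variable [Fintype F]

/-- The kinds of subgroups of `PSL(2, F)`. -/
inductive Over (p : ℕ) (M : Subgroup (ProjectiveSpecialLinearGroup (Fin 2) F)) : Prop
  | tame (h : Tame p M)
  | small (hp : p ≠ 2) (h : (Nat.card M = 12) ∨ (Nat.card M = 24 ∧ Nonempty (M ≃* Equiv.Perm (Fin 4))) ∨
      (Nat.card M = 60 ∧ Nonempty (M ≃* alternatingGroup (Fin 5))))
  | field (F₀ : Subfield F) (h4 : 4 ≤ Nat.card F₀)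
      (h : Nonempty (M ≃* ProjGenLinGroup (Fin 2) F₀) ∨
        (Odd (Nat.card F₀) ∧ Nonempty (M ≃* ProjectiveSpecialLinearGroup (Fin 2) F₀)))

theorem tame_of_dihedral {p n : ℕ} : Tame p (DihedralGroup n) := by
  have hr : ∀ a b : DihedralGroup n, ∃ i, ⁅a, b⁆ = DihedralGroup.r i := by
    intro a b
    rcases a with a | a <;> rcases b with b | b <;>
      simp [commutatorElement_def, DihedralGroup.r_mul_r, DihedralGroup.r_mul_sr, DihedralGroup.sr_mul_r,
        DihedralGroup.sr_mul_sr]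
    all_goals exact ⟨0, rfl⟩
  refine ⟨fun a b c d => ?_, Or.inl fun a b ha hb => ?_⟩
  · obtain ⟨i, hi⟩ := hr a b
    obtain ⟨j, hj⟩ := hr c d
    rw [hi, hj]
    exact congrArg DihedralGroup.r (add_comm i j)
  · have key : ∀ x : DihedralGroup n, x ^ 3 = 1 → ∃ i, x = DihedralGroup.r i := by
      intro x hx
      rcases x with i | i
      · exact ⟨i, rfl⟩
      · exfalso
        rw [pow_succ, pow_two, DihedralGroup.sr_mul_self, one_mul] at hx
        cases hx
    obtain ⟨i, rfl⟩ := key a ha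
    obtain ⟨j, rfl⟩ := key b hb
    exact congrArg DihedralGroup.r (add_comm i j)

open scoped Cfsg.Agent.MaxSub.Dickson in
theorem exists_over (p : ℕ) [Fact p.Prime] [CharP F p] (M : Subgroup (ProjectiveSpecialLinearGroup (Fin 2) F)) :
    Over p M := by
  classical
  let K := AlgebraicClosure F
  let ι : ProjectiveSpecialLinearGroup (Fin 2) F →* ProjGenLinGroup (Fin 2) F := ProjectiveSpecialLinearGroup.toPGL
  let e : M ≃* M.map ι := M.equivMapOfInjective ι ProjectiveSpecialLinearGroup.toPGL_injective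
  have tame : ∀ {X : Type _} [Group X], (M ≃* X) → Tame p X → Over p M := fun f h =>
    .tame (h.of_injective f.toMonoidHom f.injective)
  have hc : Nat.card M = Nat.card (M.map ι) := Nat.card_congr e.toEquiv
  cases Dickson.classifyF (K := K) (p := p) (M.map ι) with
  | cyclic a b m hp hcyc hab hle hdvd =>
    have hcomm : ∀ x y : M.map ι, x * y = y * x := fun x y => hcyc.isMulCommutative.is_comm.comm x y
    refine tame e ⟨fun a b c d => hcomm _ _, Or.inl fun a b _ _ => hcomm a b⟩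
  | dihedral a b m n hab hle hn hpn hdvd hcard hiso =>
    exact .tame (tame_of_dihedral.of_injective (e.trans hiso.some).toMonoidHom (e.trans hiso.some).injective)
  | borel x hfix hp =>
    obtain ⟨k, hk⟩ := Dickson.exists_move x
    have haff : ∀ g : M.map ι, ∃ (u : Fˣ) (v : F), k⁻¹ * (g : PGL(2, F)) * k = Dickson.aff u v := fun g => by
      refine Dickson.exists_aff ?_
      rw [mul_smul, mul_smul, hk, hfix g g.2, ← hk, inv_smul_smul]
    have hcomm : ∀ a b : M.map ι, ∃ w : F, k⁻¹ * ((⁅a, b⁆ : M.map ι) : PGL(2, F)) * k = Dickson.aff 1 w := by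
      intro a b
      obtain ⟨u, v, ha⟩ := haff a
      obtain ⟨u', v', hb⟩ := haff b
      obtain ⟨s, t, hai⟩ := haff a⁻¹
      obtain ⟨s', t', hbi⟩ := haff b⁻¹
      have h1 : u * s = 1 := (Dickson.aff_inj (u' := 1) (v' := 0) (by
        rw [← Dickson.aff_mul, ← ha, ← hai, Subgroup.coe_inv, Dickson.aff_one]; group)).1
      have h2 : u' * s' = 1 := (Dickson.aff_inj (u' := 1) (v' := 0) (by
        rw [← Dickson.aff_mul, ← hb, ← hbi, Subgroup.coe_inv, Dickson.aff_one]; group)).1
      have e' : k⁻¹ * ((⁅a, b⁆ : M.map ι) : PGL(2, F)) * k = Dickson.aff u v * Dickson.aff u' v' * Dickson.aff s t * Dickson.aff s' t' := by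
        rw [← ha, ← hb, ← hai, ← hbi, commutatorElement_def, Subgroup.coe_mul, Subgroup.coe_mul, Subgroup.coe_mul]
        group
      rw [Dickson.aff_mul, Dickson.aff_mul, Dickson.aff_mul,
        show u * u' * s * s' = 1 by rw [mul_right_comm u u' s, mul_assoc, h1, h2, one_mul]] at e'
      exact ⟨_, e'⟩
    have hinj : Function.Injective fun g : M.map ι => k⁻¹ * (g : PGL(2, F)) * k := fun g g' h =>
      Subtype.ext (mul_left_cancel (mul_right_cancel h))
    refine tame e ⟨fun a b c d => hinj ?_, Or.inr fun a b => hinj ?_⟩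
    · obtain ⟨w, hw⟩ := hcomm a b
      obtain ⟨w', hw'⟩ := hcomm c d
      show k⁻¹ * ((⁅a, b⁆ * ⁅c, d⁆ : M.map ι) : PGL(2, F)) * k = k⁻¹ * ((⁅c, d⁆ * ⁅a, b⁆ : M.map ι) : PGL(2, F)) * k
      have split : ∀ g g' : M.map ι, k⁻¹ * ((g * g' : M.map ι) : PGL(2, F)) * k =
          (k⁻¹ * (g : PGL(2, F)) * k) * (k⁻¹ * (g' : PGL(2, F)) * k) := fun g g' => by
        rw [Subgroup.coe_mul]; group
      rw [split, split, hw, hw', Dickson.aff_mul, Dickson.aff_mul]
      simp [add_comm]
    · obtain ⟨w, hw⟩ := hcomm a b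
      show k⁻¹ * ((⁅a, b⁆ ^ p : M.map ι) : PGL(2, F)) * k = k⁻¹ * ((1 : M.map ι) : PGL(2, F)) * k
      rw [Subgroup.coe_pow, Subgroup.coe_one, mul_one, inv_mul_cancel]
      have : ∀ (g : PGL(2, F)) (n : ℕ), k⁻¹ * g ^ n * k = (k⁻¹ * g * k) ^ n := fun g n => by
        simpa using (conj_pow (a := k⁻¹) (b := g) (i := n)).symm
      rw [this, hw, Dickson.aff_one_pow, CharP.cast_eq_zero F p, zero_mul, Dickson.aff_one]
  | a4 hp hcard hiso => exact .small hp (Or.inl (hc.trans hcard))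
  | s4 hp hcard hiso => exact .small hp (Or.inr (Or.inl ⟨hc.trans hcard, ⟨e.trans hiso.some⟩⟩))
  | a5 hp hcard hiso => exact .small hp (Or.inr (Or.inr ⟨hc.trans hcard, ⟨e.trans hiso.some⟩⟩))
  | pgl F₀ h h4 he =>
    exact .field F₀ h4 (Or.inl ⟨e.trans (((M.map ι).equivMapOfInjective _ (MulAut.conj h⁻¹).injective).trans
      ((MulEquiv.subgroupCongr he).trans (MonoidHom.ofInjective (Dickson.subPGL_injective F₀)).symm))⟩)
  | psl F₀ h h4 hodd he =>
    exact .field F₀ h4 (Or.inr ⟨hodd, ⟨e.trans (((M.map ι).equivMapOfInjective _ (MulAut.conj h⁻¹).injective).trans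
      ((MulEquiv.subgroupCongr he).trans (MonoidHom.ofInjective (Dickson.subPSL_injective F₀)).symm))⟩⟩)

/-- A proper subgroup is maximal if no proper overgroup is bigger. -/
theorem isCoatom_of_card {G : Type*} [Group G] [Finite G] (H : Subgroup G) (hlt : Nat.card H < Nat.card G)
    (h : ∀ M : Subgroup G, H ≤ M → Nat.card M < Nat.card G → Nat.card M ≤ Nat.card H) : IsCoatom H := by
  refine ⟨fun e => ?_, fun M hM => ?_⟩
  · rw [e, Subgroup.card_top] at hlt; exact lt_irrefl _ hlt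
  · by_contra hne
    have hMlt : Nat.card M < Nat.card G :=
      lt_of_le_of_ne (Subgroup.card_le_card_group M) fun e => hne (Subgroup.eq_top_of_card_eq M e)
    exact hM.ne (Subgroup.eq_of_le_of_card_ge hM.le (h M hM.le hMlt))

/-- The sizes of subfields containing enough of a subgroup of a given subfield. -/
theorem subfield_card_cases {K : Type*} [Field K] [Fintype K] {r : ℕ} (hr : r.Prime)
    (hF : Fintype.card F = Fintype.card K ^ r) (F₀ : Subfield F)
    (hdvd : Fintype.card K * (Fintype.card K - 1) * (Fintype.card K + 1) ∣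
      2 * (Nat.card F₀ * (Nat.card F₀ - 1) * (Nat.card F₀ + 1))) :
    Nat.card F₀ = Fintype.card K ∨ Nat.card F₀ = Fintype.card F := by
  classical
  have : Fintype F₀ := Fintype.ofFinite _
  obtain ⟨f, hp, hK⟩ := FiniteField.card K (ringChar K)
  set p := ringChar K
  have he : Fintype.card F = Nat.card F₀ ^ Module.finrank F₀ F := by
    rw [← Nat.card_eq_fintype_card]; exact Module.natCard_eq_pow_finrank (K := F₀) (V := F)
  have hpos : 0 < Module.finrank F₀ F := Module.finrank_pos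
  rw [hF] at he
  obtain ⟨a, -, ha⟩ := (Nat.dvd_prime_pow hp).1 (show Nat.card F₀ ∣ p ^ ((f : ℕ) * r) by
    rw [pow_mul, ← hK, he]; exact dvd_pow_self _ hpos.ne')
  rw [hK, ha] at hdvd he
  have hexp : (f : ℕ) * r = a * Module.finrank F₀ F := by
    rw [← pow_mul, ← pow_mul] at he
    exact Nat.pow_right_injective hp.two_le he
  have ha0 : 0 < a := by
    rcases Nat.eq_zero_or_pos a with rfl | h
    · rw [zero_mul] at hexp
      have := Nat.mul_pos f.pos hr.pos
      omega
    · exact h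
  have key : ∀ b : ℕ, p ^ b * (p ^ b - 1) * (p ^ b + 1) = p ^ b * (p ^ (2 * b) - 1) := fun b => by
    rw [mul_assoc, mul_comm 2 b, pow_mul, show (p ^ b) ^ 2 - 1 = (p ^ b - 1) * (p ^ b + 1) by
      rw [mul_comm, ← Nat.sq_sub_sq, one_pow]]
  rw [key, key] at hdvd
  have hcop : Nat.Coprime (p ^ (2 * (f : ℕ)) - 1) (p ^ a) := by
    refine Nat.Coprime.pow_right a ((hp.coprime_iff_not_dvd.2 fun h => ?_).symm)
    have h1 : p ∣ p ^ (2 * (f : ℕ)) := dvd_pow_self p (by have := f.pos; omega)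
    have := Nat.dvd_sub h1 h
    rw [Nat.sub_sub_self (Nat.one_le_pow _ _ hp.pos)] at this
    exact hp.ne_one (Nat.dvd_one.1 this)
  have hN : p ^ (2 * (f : ℕ)) - 1 ∣ 2 * (p ^ (2 * a) - 1) := by
    refine hcop.dvd_of_dvd_mul_left ?_
    rw [mul_left_comm]
    exact (dvd_mul_left _ _).trans hdvd
  have hg : p ^ (2 * (f : ℕ)) - 1 ∣ 2 * (p ^ (2 * Nat.gcd f a) - 1) := by
    have := Nat.dvd_gcd (dvd_mul_left (p ^ (2 * (f : ℕ)) - 1) 2) hN
    rwa [Nat.gcd_mul_left, Nat.pow_sub_one_gcd_pow_sub_one, Nat.gcd_mul_left] at this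
  have hfa : (f : ℕ) ∣ a := by
    rcases eq_or_lt_of_le (Nat.le_of_dvd f.pos (Nat.gcd_dvd_left (f : ℕ) a)) with h | h
    · exact h ▸ Nat.gcd_dvd_right _ _
    · exfalso
      obtain ⟨j, hj⟩ := Nat.gcd_dvd_left (f : ℕ) a
      set g := Nat.gcd (f : ℕ) a
      have hg0 : 0 < g := Nat.gcd_pos_of_pos_left _ f.pos
      have hj2 : 2 ≤ j := by
        rcases j with - | - | j
        · rw [mul_zero] at hj; exact absurd hj f.pos.ne'
        · rw [zero_add, mul_one] at hj; omega
        · omega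
      have h2g : 2 * g ≤ (f : ℕ) := by
        have := Nat.mul_le_mul_left g hj2
        rw [← hj] at this
        omega
      have hle := Nat.le_of_dvd (Nat.mul_pos (by norm_num) (Nat.sub_pos_of_lt (Nat.one_lt_pow (by omega) hp.one_lt))) hg
      have h2 : p ^ (2 * g) ≤ p ^ (f : ℕ) := Nat.pow_le_pow_right hp.pos h2g
      have h3 : 2 ≤ p ^ (f : ℕ) := le_trans hp.two_le (Nat.le_self_pow f.pos.ne' p)
      rw [mul_comm 2 (f : ℕ), pow_mul] at hle
      have h4 : p ^ (f : ℕ) * 2 ≤ (p ^ (f : ℕ)) ^ 2 := by rw [pow_two]; exact Nat.mul_le_mul_left _ h3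
      omega
  obtain ⟨j, rfl⟩ := hfa
  rw [mul_assoc] at hexp
  rcases (Nat.dvd_prime hr).1 ⟨_, Nat.eq_of_mul_eq_mul_left f.pos hexp⟩ with rfl | rfl
  · exact Or.inl (by rw [ha, hK, mul_one])
  · exact Or.inr (by rw [ha, hF, hK, pow_mul])

end Cfsg.Agent.MaxSubTwo
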